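import Cfsg.Agent.H668.Five.Rows
import Cfsg.Agent.LieClassical.OrthFinite
import Cfsg.Agent.LieClassical.OrthCenter
import Cfsg.Agent.LieClassical.OrthForms
import Cfsg.Agent.LieClassical.OmegaReindex

/-!
# S4874: `PΩ±_{2m}(q)`, `q` even, `m ≥ 4`

In dimension at least `8`, characteristic two: a product `v` of two Siegel transformations of order `4` which commutes
with a plane `⟨p1, p2⟩` of minus type, hence with the group `2^2 : 3` generated by the Siegel transformations
`e, x` (`x ∈ ⟨p1, p2⟩`) and the rotation of order three.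
-/

set_option autoImplicit false

open Cfsg QuadraticMap
open scoped commutatorElement

namespace Cfsg.Agent.H716.K5

open Cfsg.Agent.LieClassical.OrthCore Cfsg.Agent.LieClassical.OrthTrans
open Cfsg.Agent.LieClassical.OrthFinite Cfsg.Agent.LieClassical.OrthForms

/-- Criterion for `NN`. -/
theorem nn_of_act {G : Type*} [Group G] [Finite G] {v h a : G} (A : Subgroup G)
    (hA : ∀ x ∈ A, x * x = 1) (hAv : ∀ x ∈ A, x * v = v * x) (hhv : h * v = v * h)
    (hodd : Odd (orderOf h)) (hn : ∀ x ∈ A, h * x * h⁻¹ ∈ A) (ha : a ∈ A) (hne : h * a ≠ a * h) :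
    H668.Five.NN v := by
  let C := Subgroup.centralizer ({v} : Set G)
  have hAC : A ≤ C := fun x hx => Subgroup.mem_centralizer_singleton_iff.2 (hAv x hx)
  have hhC : h ∈ C := Subgroup.mem_centralizer_singleton_iff.2 hhv
  refine H668.Five.not_compl_of_act (X := C) (A.subgroupOf C) ?_ ⟨h, hhC⟩ ?_ ?_ (a := ⟨a, hAC ha⟩)
    (Subgroup.mem_subgroupOf.2 ha) ?_
  · intro x
    refine ⟨1, ?_⟩
    apply Subtype.ext
    apply Subtype.ext
    rw [pow_one, pow_two]
    exact hA _ (Subgroup.mem_subgroupOf.1 x.2)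
  · rwa [Subgroup.orderOf_mk]
  · intro x hx
    exact Subgroup.mem_subgroupOf.2 (hn _ (Subgroup.mem_subgroupOf.1 hx))
  · intro hcon
    exact hne (congrArg Subtype.val hcon)

section abs

variable {F V : Type*} [Field F] [AddCommGroup V] [Module F V] {Q : QuadraticForm F V}

/-- the projection off the plane `⟨a, b⟩`, characteristic two, `polar a b = 1` -/
def pj (Q : QuadraticForm F V) (a b x : V) : V := x - polar Q b x • a - polar Q a x • b

theorem polar_self_two (h2 : (2 : F) = 0) (u : V) : polar Q u u = 0 := by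
  rw [polar_self', h2, zero_mul]

theorem pj_left (h2 : (2 : F) = 0) {a b : V} (hab : polar Q a b = 1) (x : V) :
    polar Q a (pj Q a b x) = 0 := by
  rw [pj, polar_sub_right, polar_sub_right, polar_smul_right, polar_smul_right,
    polar_self_two h2, hab]
  simp

theorem pj_right (h2 : (2 : F) = 0) {a b : V} (hab : polar Q a b = 1) (x : V) :
    polar Q b (pj Q a b x) = 0 := by
  rw [pj, polar_sub_right, polar_sub_right, polar_smul_right, polar_smul_right,
    polar_self_two h2, polar_comm Q b a, hab]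
  simp

theorem pj_of_perp {a b c : V} (hca : polar Q c a = 0) (hcb : polar Q c b = 0) (x : V) :
    polar Q c (pj Q a b x) = polar Q c x := by
  rw [pj, polar_sub_right, polar_sub_right, polar_smul_right, polar_smul_right, hca, hcb]
  simp

/-- a nonzero vector orthogonal to `n` given vectors -/
theorem exists_perp {n : ℕ} (u : Fin n → V) (hn : n < Module.finrank F V) :
    ∃ w : V, w ≠ 0 ∧ ∀ i, polar Q (u i) w = 0 := by
  let f : V →ₗ[F] (Fin n → F) := LinearMap.pi fun i => polarBilin Q (u i)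
  have : Module.Finite F V := Module.finite_of_finrank_pos (by omega)
  have h1 := LinearMap.finrank_range_add_finrank_ker f
  have h2 : Module.finrank F (LinearMap.range f) ≤ n := by
    refine le_trans (Submodule.finrank_le _) ?_
    rw [Module.finrank_fin_fun]
  have h3 : LinearMap.ker f ≠ ⊥ := by
    intro h
    rw [h, finrank_bot] at h1
    omega
  obtain ⟨w, hw, hw0⟩ := Submodule.exists_mem_ne_zero_of_ne_bot h3
  refine ⟨w, hw0, fun i => ?_⟩
  have := congrFun (LinearMap.mem_ker.1 hw) i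
  simpa [f] using this

theorem siegel_congr {u w w' : V} (hu : Q u = 0) (hw : polar Q u w = 0) (hw' : polar Q u w' = 0)
    (h : w = w') : siegel Q u w hu hw = siegel Q u w' hu hw' := by
  subst h; rfl

theorem siegel_zero {u : V} (hu : Q u = 0) (hw : polar Q u 0 = 0) : siegel Q u 0 hu hw = 1 := by
  ext v
  rw [siegel_apply, QuadraticMap.map_zero]
  simp

theorem add_self_two (h2 : (2 : F) = 0) (x : V) : x + x = 0 := by
  rw [← two_smul F x, h2, zero_smul]

theorem siegel_sq (h2 : (2 : F) = 0) {u w : V} (hu : Q u = 0) (hw : polar Q u w = 0) :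
    siegel Q u w hu hw * siegel Q u w hu hw = 1 := by
  have h0 : polar Q u (w + w) = 0 := by rw [polar_add_right, hw, add_zero]
  have h0' : polar Q u 0 = 0 := polar_zero_right Q u
  rw [siegel_mul hu hw hw h0, siegel_congr hu h0 h0' (add_self_two h2 w), siegel_zero]

theorem siegel_comm {u w w' : V} (hu : Q u = 0) (hw : polar Q u w = 0) (hw' : polar Q u w' = 0) :
    siegel Q u w hu hw * siegel Q u w' hu hw' = siegel Q u w' hu hw' * siegel Q u w hu hw := by
  have h1 : polar Q u (w + w') = 0 := by rw [polar_add_right, hw, hw', add_zero]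
  have h2 : polar Q u (w' + w) = 0 := by rw [polar_add_right, hw, hw', add_zero]
  rw [siegel_mul hu hw hw' h1, siegel_mul hu hw' hw h2, siegel_congr hu h1 h2 (add_comm _ _)]

/-- an isometry fixing `u` and `w` commutes with the Siegel transformation -/
theorem siegel_fix {g : V ≃ₗ[F] V} (hg : g ∈ O Q) {u w : V} (hu : Q u = 0) (hw : polar Q u w = 0)
    (h1 : g u = u) (h2 : g w = w) : g * siegel Q u w hu hw = siegel Q u w hu hw * g := by
  have h := siegel_conj hg hu hw (by rw [h1]; exact hu) (by rw [h1, h2]; exact hw)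
  have h3 : siegel Q (g u) (g w) (by rw [h1]; exact hu) (by rw [h1, h2]; exact hw) =
      siegel Q u w hu hw := by
    congr 1
  rw [h3] at h
  exact mul_inv_eq_iff_eq_mul.1 h

/-- **The main computation.** -/
theorem good_E [Finite F] (h2 : (2 : F) = 0) (hG : Good Q) (hd : 8 ≤ Module.finrank F V)
    [Finite ↥(E Q)] : H668.Five.Good ↥(E Q) := by
  have hQ := hG.nondeg
  -- the plane
  obtain ⟨x1, y1, hxy1⟩ := hG.exists_hyp
  obtain ⟨x2, y2, hxy2, h11, h12, h21, h22⟩ := hG.exists_hyp2 hxy1
  obtain ⟨p1, hp1⟩ : ∃ p1, p1 = x1 + y1 := ⟨_, rfl⟩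
  obtain ⟨p2, hp2⟩ : ∃ p2, p2 = y1 + (x2 + y2) := ⟨_, rfl⟩
  have hQp1 : Q p1 = 1 := by
    rw [hp1, Q_add, hxy1.left, hxy1.right, hxy1.pair]; ring
  have hQp2 : Q p2 = 1 := by
    rw [hp2, Q_add, Q_add, hxy1.right, hxy2.left, hxy2.right, hxy2.pair, polar_add_right, h21, h22]
    ring
  have hpp : polar Q p1 p2 = 1 := by
    rw [hp1, hp2, polar_add_left, polar_add_right, polar_add_right, polar_add_right,
      polar_add_right, hxy1.pair, h11, h12, h21, h22, polar_self_two h2]
    ring
  have hpp' : polar Q p2 p1 = 1 := by rw [polar_comm]; exact hpp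
  have hself : ∀ u : V, polar Q u u = 0 := polar_self_two h2
  -- `e`
  obtain ⟨e, he0, hQe, he⟩ := exists_sing_perp (Q := Q) ![p1, p2] (by omega)
  have hp1e : polar Q p1 e = 0 := he 0
  have hp2e : polar Q p2 e = 0 := he 1
  have hep1 : polar Q e p1 = 0 := by rw [polar_comm]; exact hp1e
  have hep2 : polar Q e p2 = 0 := by rw [polar_comm]; exact hp2e
  -- `f`
  obtain ⟨f0, hf0⟩ := hQ.exists_polar_eq he0 1
  obtain ⟨f, hf⟩ : ∃ f, f = pj Q p1 p2 f0 := ⟨_, rfl⟩
  have hef : polar Q e f = 1 := by rw [hf, pj_of_perp hep1 hep2, hf0]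
  have hp1f : polar Q p1 f = 0 := by rw [hf, pj_left h2 hpp]
  have hp2f : polar Q p2 f = 0 := by rw [hf, pj_right h2 hpp]
  have hfe : polar Q f e = 1 := by rw [polar_comm]; exact hef
  have hfp1 : polar Q f p1 = 0 := by rw [polar_comm]; exact hp1f
  have hfp2 : polar Q f p2 = 0 := by rw [polar_comm]; exact hp2f
  -- `e'`
  obtain ⟨e', he0', hQe', he'⟩ := exists_sing_perp (Q := Q) ![p1, p2, e, f] (by omega)
  have hp1e' : polar Q p1 e' = 0 := he' 0
  have hp2e' : polar Q p2 e' = 0 := he' 1
  have hee' : polar Q e e' = 0 := he' 2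
  have hfe' : polar Q f e' = 0 := he' 3
  have he'p1 : polar Q e' p1 = 0 := by rw [polar_comm]; exact hp1e'
  have he'p2 : polar Q e' p2 = 0 := by rw [polar_comm]; exact hp2e'
  have he'e : polar Q e' e = 0 := by rw [polar_comm]; exact hee'
  have he'f : polar Q e' f = 0 := by rw [polar_comm]; exact hfe'
  -- `w`
  obtain ⟨w0, hw0⟩ := hQ.exists_polar_eq he0' 1
  obtain ⟨w, hw⟩ : ∃ w, w = pj Q p1 p2 (pj Q e f w0) := ⟨_, rfl⟩
  have he'w : polar Q e' w = 1 := by
    rw [hw, pj_of_perp he'p1 he'p2, pj_of_perp he'e he'f, hw0]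
  have hp1w : polar Q p1 w = 0 := by rw [hw, pj_left h2 hpp]
  have hp2w : polar Q p2 w = 0 := by rw [hw, pj_right h2 hpp]
  have hew : polar Q e w = 0 := by rw [hw, pj_of_perp hep1 hep2, pj_left h2 hef]
  have hfw : polar Q f w = 0 := by rw [hw, pj_of_perp hfp1 hfp2, pj_right h2 hef]
  -- `s`
  obtain ⟨s, hs0, hs⟩ := exists_perp (Q := Q) ![p1, p2, e, f, e', w] (by omega)
  have hp1s : polar Q p1 s = 0 := hs 0
  have hp2s : polar Q p2 s = 0 := hs 1
  have hes : polar Q e s = 0 := hs 2
  have hfs : polar Q f s = 0 := hs 3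
  have he's : polar Q e' s = 0 := hs 4
  have hws : polar Q w s = 0 := hs 5
  have hsw : polar Q s w = 0 := by rw [polar_comm]; exact hws
  have hse : polar Q s e = 0 := by rw [polar_comm]; exact hes
  -- the transformations
  obtain ⟨r, hr⟩ : ∃ r, r = siegel Q e w hQe hew := ⟨_, rfl⟩
  obtain ⟨t, ht⟩ : ∃ t, t = siegel Q e' s hQe' he's := ⟨_, rfl⟩
  have hrO : r ∈ O Q := by rw [hr]; exact siegel_mem_O _ _
  have htO : t ∈ O Q := by rw [ht]; exact siegel_mem_O _ _
  have hrE : r ∈ E Q := by rw [hr]; exact siegel_mem_E _ _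
  have htE : t ∈ E Q := by rw [ht]; exact siegel_mem_E _ _
  have hte : t e = e := by
    rw [ht, siegel_apply, he'e, hse]
    simp
  have htw : t w = w + s - Q s • e' := by
    rw [ht, siegel_apply, he'w, hsw]
    simp
  have hrr : r * r = 1 := by rw [hr]; exact siegel_sq h2 _ _
  have htt : t * t = 1 := by rw [ht]; exact siegel_sq h2 _ _
  obtain ⟨u, hu⟩ : ∃ u, u = s - Q s • e' := ⟨_, rfl⟩
  have heu : polar Q e u = 0 := by
    rw [hu, polar_sub_right, polar_smul_right, hes, hee']; simp
  have hfu : polar Q f u = 0 := by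
    rw [hu, polar_sub_right, polar_smul_right, hfs, hfe']; simp
  have hwu : polar Q w u = - Q s := by
    rw [hu, polar_sub_right, polar_smul_right, hws, polar_comm Q w e', he'w]; simp
  have hconj : t * r * t⁻¹ = r * siegel Q e u hQe heu := by
    have h3 : polar Q e (t w) = 0 := by
      have := polar_map htO e w
      rw [hte] at this
      rw [this, hew]
    have h4 := siegel_conj htO hQe hew (by rw [hte]; exact hQe) (by rw [hte]; exact h3)
    rw [← hr] at h4
    rw [h4]
    have h5 : polar Q e (w + u) = 0 := by rw [polar_add_right, hew, heu, add_zero]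
    rw [hr, siegel_mul hQe hew heu h5]
    have h6 : t w = w + u := by rw [htw, hu]; abel
    ext x
    rw [siegel_apply, siegel_apply, hte, h6]
  obtain ⟨v, hv⟩ : ∃ v, v = r * t := ⟨_, rfl⟩
  have hv2 : v ^ 2 = siegel Q e u hQe heu := by
    have h3 : t⁻¹ = t := inv_eq_of_mul_eq_one_left htt
    calc v ^ 2 = r * (t * r * t⁻¹) * (t * t) := by rw [hv, pow_two]; group
      _ = (r * r) * siegel Q e u hQe heu := by rw [hconj, htt, mul_one, mul_assoc]
      _ = _ := by rw [hrr, one_mul]
  have hv4 : v ^ 4 = 1 := by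
    rw [show 4 = 2 * 2 from rfl, pow_mul, hv2, pow_two]
    exact siegel_sq h2 _ _
  have hvn : v ^ 2 ≠ 1 := by
    intro hcon
    rw [hv2] at hcon
    have h3 := congrArg (fun g : V ≃ₗ[F] V => g f) hcon
    simp only [LinearEquiv.coe_one, id_eq] at h3
    rw [siegel_apply, hef, polar_comm Q u f, hfu, one_smul, zero_smul, sub_zero, mul_one] at h3
    have h4 : u = Q u • e := by
      have h6 : f + (u - Q u • e) = f := by rw [← add_sub_assoc]; exact h3
      exact sub_eq_zero.1 (add_eq_left.1 h6)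
    have h5 : Q u = 0 := by
      have h6 := congrArg (polar Q f) h4
      rw [hfu, polar_smul_right, hfe, smul_eq_mul, mul_one] at h6
      exact h6.symm
    rw [h5, zero_smul] at h4
    have h6 : Q s = 0 := by
      have h7 := congrArg (polar Q w) h4
      rw [hwu, polar_zero_right] at h7
      exact neg_eq_zero.1 h7
    rw [hu, h6, zero_smul, sub_zero] at h4
    exact hs0 h4
  -- the rotation
  have hQp1' : Q p1 ≠ 0 := by rw [hQp1]; exact one_ne_zero
  have hQp2' : Q p2 ≠ 0 := by rw [hQp2]; exact one_ne_zero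
  obtain ⟨r1, hr1⟩ : ∃ r1, r1 = refl Q p1 hQp1' := ⟨_, rfl⟩
  obtain ⟨r2, hr2⟩ : ∃ r2, r2 = refl Q p2 hQp2' := ⟨_, rfl⟩
  have hr1a : ∀ x, r1 x = x - polar Q p1 x • p1 := by
    intro x
    rw [hr1, refl_apply, hQp1, inv_one, one_mul]
  have hr2a : ∀ x, r2 x = x - polar Q p2 x • p2 := by
    intro x
    rw [hr2, refl_apply, hQp2, inv_one, one_mul]
  have hr1O : r1 ∈ O Q := by rw [hr1]; exact refl_mem_O _
  have hr2O : r2 ∈ O Q := by rw [hr2]; exact refl_mem_O _
  have hr11 : r1 * r1 = 1 := by rw [hr1]; exact refl_mul_self _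
  have hr22 : r2 * r2 = 1 := by rw [hr2]; exact refl_mul_self _
  obtain ⟨h, hh⟩ : ∃ h, h = r1 * r2 := ⟨_, rfl⟩
  have hhO : h ∈ O Q := by rw [hh]; exact (O Q).mul_mem hr1O hr2O
  have hha : ∀ x, h x = x - polar Q p2 x • p2 - (polar Q p1 x - polar Q p2 x) • p1 := by
    intro x
    rw [hh]
    change r1 (r2 x) = _
    rw [hr2a, hr1a, polar_sub_right, polar_smul_right, hpp, smul_eq_mul, mul_one]
  have hhfix : ∀ x, polar Q p1 x = 0 → polar Q p2 x = 0 → h x = x := by
    intro x h3 h4
    rw [hha, h3, h4]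
    simp
  have hneg : ∀ c : F, -c = c := fun c => by
    have : c + c = 0 := by rw [← two_mul, h2, zero_mul]
    exact neg_eq_of_add_eq_zero_left this
  have hc1 : ∀ x, polar Q p1 (h x) = polar Q p1 x - polar Q p2 x := by
    intro x
    rw [hha, polar_sub_right, polar_sub_right, polar_smul_right, polar_smul_right, hpp, hself]
    simp
  have hc2 : ∀ x, polar Q p2 (h x) = polar Q p1 x := by
    intro x
    rw [hha, polar_sub_right, polar_sub_right, polar_smul_right, polar_smul_right, hpp', hself,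
      smul_eq_mul, smul_eq_mul, mul_zero, mul_one, sub_zero]
    linear_combination h2 * (polar Q p2 x - polar Q p1 x)
  have hh3 : h ^ 3 = 1 := by
    ext x
    rw [pow_succ, pow_two]
    change h (h (h x)) = x
    have e1 := hc1 x
    have e2 := hc2 x
    have e3 := hc1 (h x)
    have e4 := hc2 (h x)
    rw [hha (h (h x)), e3, e4, e1, e2, hha (h x), e1, e2, hha x]
    have h3 : ∀ y : V, y = -y := fun y => by
      rw [eq_neg_iff_add_eq_zero]; exact add_self_two h2 y
    match_scalars
    · ring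
    · linear_combination -h2 * (polar Q p1 x)
    · linear_combination h2 * (polar Q p2 x)
  have hh1 : h ≠ 1 := by
    intro hcon
    have h3 := congrArg (fun g : V ≃ₗ[F] V => polar Q p1 (g p1)) hcon
    simp only [LinearEquiv.coe_one, id_eq] at h3
    rw [hc1, hself, hpp'] at h3
    simp at h3
  have hord : orderOf h = 3 := orderOf_eq_prime hh3 hh1
  have hhE : h ∈ E Q := by
    rw [← hG.commutator_eq_E]
    have h3 : ⁅r1, h⁆ = h := by
      rw [commutatorElement_def]
      have h4 : r1⁻¹ = r1 := inv_eq_of_mul_eq_one_left hr11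
      have h5 : r1 * h * r1⁻¹ = h⁻¹ := by
        rw [h4, eq_inv_iff_mul_eq_one, hh]
        calc r1 * (r1 * r2) * r1 * (r1 * r2) = (r1 * r1) * r2 * (r1 * r1) * r2 := by group
          _ = 1 := by rw [hr11, one_mul, mul_one, hr22]
      rw [h5]
      calc h⁻¹ * h⁻¹ = h⁻¹ * h⁻¹ * h ^ 3 := by rw [hh3, mul_one]
        _ = h := by group
    rw [← h3]
    exact Subgroup.commutator_mem_commutator hr1O hhO
  have hhe : h e = e := hhfix e hp1e hp2e
  have hhr : h * r = r * h := by
    rw [hr]; exact siegel_fix hhO _ _ hhe (hhfix w hp1w hp2w)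
  have hht : h * t = t * h := by
    rw [ht]; exact siegel_fix hhO _ _ (hhfix e' hp1e' hp2e') (hhfix s hp1s hp2s)
  have hhv : h * v = v * h := by
    rw [hv, ← mul_assoc, hhr, mul_assoc, hht, mul_assoc]
  have hvE : v ∈ E Q := by rw [hv]; exact (E Q).mul_mem hrE htE
  -- the group `A`
  let P : Submodule F V := Submodule.span F {p1, p2}
  have hPe : ∀ x ∈ P, polar Q e x = 0 := by
    intro x hx
    induction hx using Submodule.span_induction with
    | mem x hx =>
      rcases hx with rfl | rfl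
      · exact hep1
      · exact hep2
    | zero => exact polar_zero_right Q e
    | add x y _ _ hx hy => rw [polar_add_right, hx, hy, add_zero]
    | smul a x _ hx => rw [polar_smul_right, hx, smul_zero]
  have hPfix : ∀ y : V, polar Q y p1 = 0 → polar Q y p2 = 0 → ∀ x ∈ P, polar Q y x = 0 := by
    intro y h3 h4 x hx
    induction hx using Submodule.span_induction with
    | mem x hx =>
      rcases hx with rfl | rfl
      · exact h3
      · exact h4
    | zero => exact polar_zero_right Q y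
    | add x y _ _ hx hy => rw [polar_add_right, hx, hy, add_zero]
    | smul a x _ hx => rw [polar_smul_right, hx, smul_zero]
  have hsp1 : polar Q s p1 = 0 := by rw [polar_comm]; exact hp1s
  have hsp2 : polar Q s p2 = 0 := by rw [polar_comm]; exact hp2s
  have hPh : ∀ x ∈ P, h x ∈ P := by
    intro x hx
    rw [hha]
    refine P.sub_mem (P.sub_mem hx (P.smul_mem _ ?_)) (P.smul_mem _ ?_)
    · exact Submodule.subset_span (by simp)
    · exact Submodule.subset_span (by simp)
  have htP : ∀ x ∈ P, t x = x := by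
    intro x hx
    rw [ht, siegel_apply, hPfix e' he'p1 he'p2 x hx, hPfix s hsp1 hsp2 x hx]
    simp
  let A : Subgroup ↥(E Q) :=
    { carrier := {g | ∃ (x : V) (hx : x ∈ P), (g : V ≃ₗ[F] V) = siegel Q e x hQe (hPe x hx)}
      mul_mem' := by
        rintro a b ⟨x, hx, ha⟩ ⟨y, hy, hb⟩
        refine ⟨x + y, P.add_mem hx hy, ?_⟩
        rw [Subgroup.coe_mul, ha, hb]
        exact siegel_mul _ _ _ _
      one_mem' := by
        refine ⟨0, P.zero_mem, ?_⟩
        rw [Subgroup.coe_one, siegel_zero]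
      inv_mem' := by
        rintro a ⟨x, hx, ha⟩
        refine ⟨x, hx, ?_⟩
        rw [Subgroup.coe_inv, ha]
        exact inv_eq_of_mul_eq_one_left (siegel_sq h2 _ _) }
  have hp1P : p1 ∈ P := Submodule.subset_span (by simp)
  refine Or.inl ⟨⟨v, hvE⟩, ?_, ?_⟩
  · rw [Subgroup.orderOf_mk, show 4 = 2 ^ (1 + 1) by norm_num]
    exact orderOf_eq_prime_pow (by rw [pow_one]; exact hvn) (by norm_num; exact hv4)
  · refine nn_of_act (h := ⟨h, hhE⟩) (a := ⟨siegel Q e p1 hQe hep1, siegel_mem_E _ _⟩) A ?_ ?_ ?_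
      ?_ ?_ ⟨p1, hp1P, rfl⟩ ?_
    · rintro a ⟨x, hx, ha⟩
      apply Subtype.ext
      rw [Subgroup.coe_mul, ha, Subgroup.coe_one]
      exact siegel_sq h2 _ _
    · rintro a ⟨x, hx, ha⟩
      apply Subtype.ext
      rw [Subgroup.coe_mul, Subgroup.coe_mul, ha]
      change _ * v = v * _
      have h3 : t * siegel Q e x hQe (hPe x hx) = siegel Q e x hQe (hPe x hx) * t :=
        siegel_fix htO _ _ hte (htP x hx)
      rw [hv, mul_assoc r t, h3, ← mul_assoc, ← mul_assoc, hr, siegel_comm hQe (hPe x hx) hew]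
    · apply Subtype.ext
      exact hhv
    · rw [Subgroup.orderOf_mk, hord]
      decide
    · rintro a ⟨x, hx, ha⟩
      refine ⟨h x, hPh x hx, ?_⟩
      rw [Subgroup.coe_mul, Subgroup.coe_mul, Subgroup.coe_inv, ha]
      change h * _ * h⁻¹ = _
      rw [siegel_conj hhO hQe (hPe x hx) (by rw [hhe]; exact hQe)
        (by rw [hhe]; exact hPe _ (hPh x hx))]
      ext y
      rw [siegel_apply, siegel_apply, hhe]
    · intro hcon
      have h3 : h * siegel Q e p1 hQe hep1 = siegel Q e p1 hQe hep1 * h :=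
        congrArg Subtype.val hcon
      have h4 := congrArg (fun g : V ≃ₗ[F] V => polar Q p1 (g f)) h3
      change polar Q p1 (h (siegel Q e p1 hQe hep1 f)) = polar Q p1 (siegel Q e p1 hQe hep1 (h f))
        at h4
      rw [hc1, hhfix f hp1f hp2f, siegel_apply, hef] at h4
      simp only [polar_sub_right, polar_add_right, polar_smul_right, hp1f, hp2f, hself, hpp',
        hp1e, hp2e, smul_eq_mul] at h4
      simp at h4

end abs

section rows

variable {F : Type} [Field F] [Fintype F]

theorem good_pomega {ι : Type} [Fintype ι] [DecidableEq ι] {Q : QuadraticForm F (ι → F)}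
    (h2 : (2 : F) = 0) (hQ : Nondeg Q) (hd : 8 ≤ Fintype.card ι) :
    H668.Five.Good (POmega F ⇑Q) := by
  have hG : Good Q := good_of_finite hQ (by rw [Module.finrank_fintype_fun_eq_card]; omega)
  let f := (omegaEquiv Q).trans (MulEquiv.subgroupCongr hG.commutator_eq_E)
  have hfinO : Finite ↥(Omega F ⇑Q) := inferInstance
  have hfin : Finite ↥(E Q) := Finite.of_equiv _ f.toEquiv
  have hE := good_E h2 hG (by rw [Module.finrank_fintype_fun_eq_card]; exact hd)
  have hfinP : Finite (POmega F ⇑Q) := by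
    exact Finite.of_surjective _ (QuotientGroup.mk'_surjective (Subgroup.center (Omega F ⇑Q)))
  have hinj : Function.Injective (QuotientGroup.mk' (Subgroup.center (Omega F ⇑Q))) := ?_
  · exact hE.map ((QuotientGroup.mk' (Subgroup.center (Omega F ⇑Q))).comp f.symm.toMonoidHom)
      (hinj.comp f.symm.injective)
  rw [← MonoidHom.ker_eq_bot_iff, QuotientGroup.ker_mk', Subgroup.eq_bot_iff_forall]
  intro z hz
  have h1 := (LieClassical.OrthCenter.mem_center_omega_iff
    (LieClassical.OmegaReindex.nondegenerate_of_left _ hQ) (by omega) hG.sing z).1 hz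
  have hneg : (-1 : Matrix ι ι F) = 1 := by
    rw [neg_eq_iff_add_eq_zero, ← two_mul, ← Matrix.ext_iff]
    intro i j
    simp [Matrix.ofNat_apply, h2]
  rw [hneg, or_self] at h1
  apply Subtype.ext
  apply Subtype.ext
  apply Units.ext
  exact h1

theorem two_eq_zero_of_even (hF : Even (Fintype.card F)) : (2 : F) = 0 := by
  obtain ⟨k, hk⟩ := hF
  obtain ⟨p, hp⟩ := CharP.exists F
  have hpp : p.Prime := CharP.char_is_prime F p
  obtain ⟨n, -, hn⟩ := FiniteField.card F p
  have h1 : 2 ∣ p ^ (n : ℕ) := by rw [← hn, hk]; exact ⟨k, by ring⟩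
  have h2 : 2 ∣ p := Nat.prime_two.dvd_of_dvd_pow h1
  have h3 : p = 2 := ((Nat.prime_dvd_prime_iff_eq Nat.prime_two hpp).1 h2).symm
  subst h3
  exact CharP.cast_eq_zero F 2

/-- **`PΩ⁺_{2m}(q)`, `q` even** -/
theorem row_pomega_plus_evenq (F : Type) [Field F] [Fintype F] (hF : Even (Fintype.card F)) (m : ℕ)
    (hm : 4 ≤ m) : H668.Five.Good (POmega F (quadFormPlus m F)) := by
  rw [← coe_plusForm]
  refine good_pomega (two_eq_zero_of_even hF) (nondeg_plusForm m F) ?_
  rw [Fintype.card_sum, Fintype.card_fin]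
  omega

/-- **`PΩ⁻_{2m}(q)`, `q` even** -/
theorem row_pomega_minus_evenq (F : Type) [Field F] [Fintype F] (hF : Even (Fintype.card F)) (m : ℕ)
    (hm : 4 ≤ m) (a b : F) (hab : ∀ z₁ z₂ : F, z₁ ^ 2 + a * z₁ * z₂ + b * z₂ ^ 2 = 0 → z₁ = 0 ∧ z₂ = 0) :
    H668.Five.Good (POmega F (quadFormMinus (m - 1) F a b)) := by
  rw [← coe_minusForm]
  refine good_pomega (two_eq_zero_of_even hF) (nondeg_minusForm (m - 1) F a b hab) ?_
  rw [Fintype.card_sum, Fintype.card_sum, Fintype.card_fin, Fintype.card_fin]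
  omega

end rows

end Cfsg.Agent.H716.K5
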